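import Cfsg.Agent.H17.FV0

/-! S5720, chunk SU. -/

set_option autoImplicit false
set_option linter.unusedVariables false

open Module H17.FV

namespace H10.FV

universe v w

theorem rk_le_map {K M : Type*} [Field K] [AddCommGroup M] [Module K M] [FiniteDimensional K M]
    (T : End K M) (S : Submodule K M) :
    finrank K (LinearMap.range T) + finrank K S ≤ finrank K (S.map T) + finrank K M := by
  have h1 := LinearMap.finrank_range_add_finrank_ker T
  have h2 := LinearMap.finrank_range_add_finrank_ker (T.domRestrict S)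
  rw [LinearMap.range_domRestrict, LinearMap.ker_domRestrict] at h2
  have h3 : finrank K ((LinearMap.ker T).comap S.subtype) ≤ finrank K (LinearMap.ker T) := by
    rw [← Submodule.finrank_map_subtype_eq]
    exact Submodule.finrank_mono (Submodule.map_comap_le _ _)
  omega

theorem su : H17.FV.SU.{v, w} := by
  intro K A M _ _ _ _ _ _ _ _ p _ _ D ν hp hν ef s j v c u hz hs
  obtain ⟨b, hb⟩ := u.bas
  have hsm : ∀ (y : A) (k : K) (m : M), y • k • m = k • y • m := fun y k m => (act K M y).map_smul k m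
  have hes : ∀ m : M, D.e ^ s • m = 0 := by
    have : act K M (D.e ^ s) = 0 := b.ext fun i => by
      show D.e ^ s • b i = 0
      rw [hb, ← mul_smul, ← pow_add, add_comm, pow_add, mul_smul, u.nil, smul_zero]
    intro m; exact LinearMap.congr_fun this m
  have hv' : D.e ^ (s - 1) • v ≠ 0 := by
    have := b.ne_zero ⟨s - 1, by omega⟩
    rwa [hb] at this
  have hU : ∀ (x : ZMod p) (m : M), ∃ y : A, D.U x • m = m - D.φ x • D.e • m + D.e • D.e • y • m ∧
      D.e • D.e • y • m = y • D.e • D.e • m := by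
    intro x m
    obtain ⟨y, hy, e⟩ := ef.Ue x
    have hc : Commute D.e y := Algebra.commute_of_mem_adjoin_of_forall_mem_commute hy (by
      rintro _ rfl; exact Commute.refl _)
    refine ⟨y, ?_, ?_⟩
    · rw [e, add_smul, sub_smul, one_smul, smul_assoc, mul_smul, mul_smul]
    · rw [← mul_smul, ← mul_smul, ← mul_smul, ← mul_smul, mul_assoc, hc.eq, ← mul_assoc, hc.eq]
  set E := LinearMap.range (act K M D.e) with hE
  have hEm : ∀ m : M, D.e • m ∈ E := fun m => ⟨m, rfl⟩
  have hUE : ∀ (x : ZMod p) (m : M), D.U x • m - m ∈ E := by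
    intro x m
    obtain ⟨y, e, -⟩ := hU x m
    rw [e, show ∀ a b c : M, a - b + c - a = c - b from fun a b c => by abel]
    exact sub_mem (hEm _) (E.smul_mem _ (hEm _))
  have hHE : ∀ (l : (ZMod p)ˣ), ∀ m ∈ E, D.H l • m ∈ E := by
    rintro l _ ⟨m, rfl⟩
    show D.H l • D.e • m ∈ E
    rw [← mul_smul, ef.He, smul_assoc, mul_smul]
    exact E.smul_mem _ (hEm _)
  have hY : ∀ m : M, D.Y ν • m = D.H ν⁻¹ • (D.U (-1) • m - D.U ((ν : ZMod p) ^ 2) • m) -
      (D.U (-(ν : ZMod p)) • m - D.U ((ν⁻¹ : (ZMod p)ˣ) : ZMod p) • m) := by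
    intro m
    simp only [Dat.Y, sub_smul, mul_smul, add_smul, hz, sub_eq_add_neg]
    rw [neg_smul, add_smul, mul_smul, hz]
  have hYE : ∀ m : M, D.Y ν • m ∈ E := by
    intro m
    have k : ∀ x y : ZMod p, D.U x • m - D.U y • m ∈ E := fun x y => by
      have := sub_mem (hUE x m) (hUE y m)
      rwa [sub_sub_sub_cancel_right] at this
    rw [hY]; exact sub_mem (hHE _ _ (k _ _)) (k _ _)
  have hR : ∀ m : M, D.R 1 • m = m + D.w • D.U (-1) • m - D.U 1 • D.w • m := by
    intro m
    rw [D.R_eq]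
    simp only [inv_one, Units.val_one, D.H1, add_smul, mul_smul, one_smul, hz, sub_eq_add_neg]
  have he1 : ∀ (i : ℕ) (m : M), D.e • D.e ^ i • m = D.e ^ (i + 1) • m := fun i m => by
    rw [← mul_smul, ← pow_succ']
  have he2 : ∀ (i : ℕ) (m : M), D.e ^ i • D.e • m = D.e ^ (i + 1) • m := fun i m => by
    rw [← mul_smul, ← pow_succ]
  set v' := D.e ^ (s - 1) • v with hv
  have ev : D.e • v' = 0 := by rw [hv, he1, show s - 1 + 1 = s by omega, hes]
  have Uv : ∀ x, D.U x • v' = v' := fun x => by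
    obtain ⟨y, e, e'⟩ := hU x v'
    rw [e, e', ev]; simp
  have Yv : D.Y ν • v' = 0 := by rw [hY, Uv, Uv, Uv, Uv, sub_self, smul_zero, sub_self]
  have Rv : D.R 1 • v' ≠ 0 := by
    intro e
    obtain ⟨y, e1, -⟩ := hU 1 v
    rw [hR, Uv, u.top, hsm, e1] at e
    have e2 := congrArg (fun m => D.e ^ (s - 2) • m) e
    have e3 : D.e ^ (s - 2) • v' = 0 := by
      rw [hv, ← mul_smul, ← pow_add, show s - 2 + (s - 1) = s - 3 + s by omega, pow_add, mul_smul, hes,
        smul_zero]
    simp only [smul_sub, smul_add, hsm, he2, e3, smul_zero, map_one, one_smul,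
      show s - 2 + 1 = s - 1 by omega, show s - 1 + 1 = s by omega, hes] at e2
    rw [← hv] at e2
    have : c • v' = 0 := by rw [← e2]; abel
    exact hv' ((smul_eq_zero.1 this).resolve_left u.c0)
  have Rx : D.R 1 • D.e ^ (s - 2) • v ∉ E := by
    intro e
    obtain ⟨y, e1, e2⟩ := hU (-1) (D.e ^ (s - 2) • v)
    rw [e2, he1, he1, show s - 2 + 1 = s - 1 by omega, show s - 1 + 1 = s by omega, hes, smul_zero,
      add_zero, map_neg, map_one, neg_smul, one_smul, sub_neg_eq_add, ← hv] at e1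
    rw [hR, e1, smul_add, u.top] at e
    have h1 : D.e ^ (s - 2) • v ∈ E := by
      rw [show s - 2 = s - 3 + 1 by omega, ← he1]; exact hEm _
    have h2 := add_mem (sub_mem e h1) (hUE 1 (D.w • D.e ^ (s - 2) • v))
    rw [show ∀ a b c d : M, a + (b + c) - d - a + (d - b) = c from fun a b c d => by abel] at h2
    obtain ⟨m, hm⟩ := h2
    have e3 := congrArg (fun m => D.e ^ (s - 1) • m) (show D.e • m = c • v from hm)
    simp only [he2, show s - 1 + 1 = s by omega, hes, hsm] at e3
    exact hv' ((smul_eq_zero.1 e3.symm).resolve_left u.c0)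
  have hRN : ∀ l, rk K M (D.R l) ≤ rk K M (D.N l) := fun l => Submodule.finrank_mono (by
    rintro _ ⟨m, rfl⟩; exact ⟨D.H l⁻¹ • m, (mul_smul _ _ _).symm⟩)
  set K0 := LinearMap.ker (act K M (D.R ν)) ⊓ LinearMap.ker (act K M (D.R 1)) with hK0
  set I := LinearMap.range (act K M (D.R ν)) ⊔ LinearMap.range (act K M (D.R 1)) with hI
  have a1 := LinearMap.finrank_range_add_finrank_ker (act K M (D.R ν))
  have a2 := LinearMap.finrank_range_add_finrank_ker (act K M (D.R 1))
  have a3 := Submodule.finrank_sup_add_finrank_inf_eq (LinearMap.ker (act K M (D.R ν)))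
    (LinearMap.ker (act K M (D.R 1)))
  have a4 := Submodule.finrank_le (LinearMap.ker (act K M (D.R ν)) ⊔ LinearMap.ker (act K M (D.R 1)))
  have a5 := Submodule.finrank_sup_add_finrank_inf_eq (LinearMap.range (act K M (D.R ν)))
    (LinearMap.range (act K M (D.R 1)))
  have a6 : finrank K K0 < finrank K ↥(K0 ⊔ LinearMap.ker (act K M (D.Y ν))) :=
    Submodule.finrank_lt_finrank_of_lt (lt_of_le_of_ne le_sup_left fun e =>
      Rv ((e ▸ Submodule.mem_sup_right (show v' ∈ LinearMap.ker (act K M (D.Y ν)) from Yv) : v' ∈ K0).2))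
  have a7 : finrank K ↥(I ⊓ E) < finrank K I :=
    Submodule.finrank_lt_finrank_of_lt (lt_of_le_of_ne inf_le_left fun e =>
      Rx (by
        have : D.R 1 • D.e ^ (s - 2) • v ∈ I := Submodule.mem_sup_right (LinearMap.mem_range.2 ⟨_, rfl⟩)
        rw [← e] at this; exact this.2))
  have a8 : finrank K ((K0 ⊔ LinearMap.ker (act K M (D.Y ν))).map (act K M (D.Y ν))) ≤ finrank K ↥(I ⊓ E) := by
    refine Submodule.finrank_mono ?_
    rintro _ ⟨m, hm, rfl⟩
    refine ⟨?_, hYE m⟩
    obtain ⟨m1, h1, m2, h2, rfl⟩ := Submodule.mem_sup.1 hm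
    rw [map_add, show act K M (D.Y ν) m2 = 0 from h2, add_zero]
    show D.Y ν • m1 ∈ I
    have r1 : D.R ν • m1 = 0 := h1.1
    have r2 : D.R 1 • m1 = 0 := h1.2
    rw [D.Y_eq]
    simp only [sub_smul, add_smul, mul_smul, r1, r2, smul_zero, add_zero, sub_zero]
    exact sub_mem (Submodule.mem_sup_left ⟨_, rfl⟩) (Submodule.mem_sup_right ⟨_, rfl⟩)
  have a9 := rk_le_map (act K M (D.Y ν)) (K0 ⊔ LinearMap.ker (act K M (D.Y ν)))
  have b1 := hRN 1
  have b2 := hRN ν
  rw [← hK0] at a3
  rw [← hI] at a5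
  simp only [rk] at b1 b2 ⊢
  omega

end H10.FV
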